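import Mathlib

/-!
Thompson's transfer lemma for a central element of order two.
-/

set_option autoImplicit false

namespace Cfsg.Lib.Transfer

open Subgroup

variable {G : Type*} [Group G] [Finite G]

/-- The number of elements conjugating `u` into `M`. -/
theorem card_conj_into (u : G) (M : Subgroup G) :
    Nat.card {g : G // g⁻¹ * u * g ∈ M} =
      Nat.card (centralizer ({u} : Set G)) * Nat.card {x : G // x ∈ M ∧ IsConj u x} := by
  classical
  have hr : ∀ x : {x : G // x ∈ M ∧ IsConj u x}, ∃ r : G, r⁻¹ * u * r = x := fun x => by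
    obtain ⟨c, hc⟩ := isConj_iff.1 x.2.2
    exact ⟨c⁻¹, by rw [inv_inv, hc]⟩
  choose r hr using hr
  rw [← Nat.card_prod]
  refine (Nat.card_congr (Equiv.ofBijective (fun q : (centralizer ({u} : Set G)) × {x : G // x ∈ M ∧ IsConj u x} =>
    (⟨(q.1 : G) * r q.2, ?_⟩ : {g : G // g⁻¹ * u * g ∈ M})) ⟨?_, ?_⟩)).symm
  · have h := mem_centralizer_singleton_iff.1 q.1.2
    rw [show ((q.1 : G) * r q.2)⁻¹ * u * ((q.1 : G) * r q.2) = (r q.2)⁻¹ * ((q.1 : G)⁻¹ * (u * q.1)) * r q.2 by group,
      ← h, inv_mul_cancel_left, hr]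
    exact q.2.2.1
  · rintro ⟨⟨c, hc⟩, x⟩ ⟨⟨d, hd⟩, y⟩ h
    have h : c * r x = d * r y := congrArg Subtype.val h
    have hxy : x = y := by
      refine Subtype.ext ?_
      rw [← hr x, ← hr y]
      have hc' := mem_centralizer_singleton_iff.1 hc
      have hd' := mem_centralizer_singleton_iff.1 hd
      calc (r x)⁻¹ * u * r x = (c * r x)⁻¹ * (c * u) * r x := by group
        _ = (c * r x)⁻¹ * (u * c) * r x := by rw [hc']
        _ = (c * r x)⁻¹ * u * (c * r x) := by group
        _ = (d * r y)⁻¹ * u * (d * r y) := by rw [h]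
        _ = (d * r y)⁻¹ * (u * d) * r y := by group
        _ = (d * r y)⁻¹ * (d * u) * r y := by rw [hd']
        _ = (r y)⁻¹ * u * r y := by group
    subst hxy
    exact Prod.ext (Subtype.ext (mul_right_cancel h)) rfl
  · rintro ⟨g, hg⟩
    let x : {x : G // x ∈ M ∧ IsConj u x} := ⟨_, hg, isConj_iff.2 ⟨g⁻¹, by rw [inv_inv]⟩⟩
    refine ⟨(⟨g * (r x)⁻¹, mem_centralizer_singleton_iff.2 ?_⟩, x), Subtype.ext (inv_mul_cancel_right g (r x))⟩
    have h := hr x
    calc g * (r x)⁻¹ * u = g * ((r x)⁻¹ * u * r x) * (r x)⁻¹ := by group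
      _ = g * (g⁻¹ * u * g) * (r x)⁻¹ := by rw [h]
      _ = u * (g * (r x)⁻¹) := by group

/-- An involution central in a Sylow `2`-subgroup with no conjugate central in the Sylow subgroup inside a
subgroup of index two gives a non-trivial homomorphism to a group of order two. -/
theorem exists_nontrivial_sign (S : Sylow 2 G) (M : Subgroup G) (hMS : M ≤ (S : Subgroup G))
    (hM : 2 * Nat.card M = Nat.card (S : Subgroup G))
    (hMn : ∀ s ∈ (S : Subgroup G), ∀ m ∈ M, s * m * s⁻¹ ∈ M)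
    (u : G) (huS : u ∈ (S : Subgroup G)) (hu2 : orderOf u = 2)
    (huc : ∀ s ∈ (S : Subgroup G), s * u = u * s)
    (hx : ∀ x ∈ M, (∀ s ∈ (S : Subgroup G), s * x = x * s) → ¬ IsConj u x) :
    ∃ f : G →* ℤˣ, f u ≠ 1 := by
  classical
  haveI : Fact (Nat.Prime 2) := ⟨Nat.prime_two⟩
  haveI : Fintype (G ⧸ M) := Fintype.ofFinite _
  refine ⟨Equiv.Perm.sign.comp (MulAction.toPermHom G (G ⧸ M)), fun hf => ?_⟩
  set π := MulAction.toPermHom G (G ⧸ M) u with hπ
  have hπ2 : π ^ 2 = 1 := by
    rw [hπ, ← map_pow, ← hu2, pow_orderOf_eq_one, map_one]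
  have hcyc : ∀ m ∈ π.cycleType, m = 2 := fun m hm => by
      have h1 := Equiv.Perm.dvd_of_mem_cycleType hm
      have h2 := Equiv.Perm.two_le_of_mem_cycleType hm
      have h3 := Nat.le_of_dvd two_pos (h1.trans (orderOf_dvd_of_pow_eq_one hπ2))
      omega
  obtain ⟨k, hk⟩ : ∃ k, π.cycleType = Multiset.replicate k 2 :=
    ⟨_, Multiset.eq_replicate_card.2 hcyc⟩
  have hsign : Equiv.Perm.sign π = 1 := hf
  rw [Equiv.Perm.sign_of_cycleType, hk, Multiset.sum_replicate, Multiset.card_replicate] at hsign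
  have hkeven : Even k := by
    rcases Nat.even_or_odd k with h | h
    · exact h
    · exfalso
      rw [Odd.neg_one_pow] at hsign
      · exact absurd hsign (by decide)
      · obtain ⟨j, rfl⟩ := h
        exact ⟨3 * j + 1, by simp; ring⟩
  -- count the fixed points
  set fix := Nat.card {q : G ⧸ M // u • q = q} with hfix
  have hsupp : Nat.card (G ⧸ M) = fix + 2 * k := by
    have h1 : π.support.card = 2 * k := by
      rw [← Equiv.Perm.sum_cycleType, hk, Multiset.sum_replicate, smul_eq_mul, mul_comm]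
    have h2 : (π.supportᶜ).card = fix := by
      rw [hfix, Nat.card_eq_fintype_card, Fintype.card_subtype]
      congr 1
      ext q
      simp [hπ, MulAction.toPermHom_apply]
    rw [Nat.card_eq_fintype_card, ← h1, ← h2, add_comm, Finset.card_add_card_compl]
  have hfix' : fix * Nat.card M =
      Nat.card (centralizer ({u} : Set G)) * Nat.card {x : G // x ∈ M ∧ IsConj u x} := by
    have e : (QuotientGroup.mk ⁻¹' {q : G ⧸ M | u • q = q} : Set G) = {g : G | g⁻¹ * u * g ∈ M} := by
      ext g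
      show ((u * g : G) : G ⧸ M) = (g : G ⧸ M) ↔ _
      rw [eq_comm, QuotientGroup.eq, Set.mem_setOf_eq, mul_assoc]
    rw [← card_conj_into u M, hfix, ← Nat.card_prod]
    refine Nat.card_congr ((Equiv.prodComm _ _).trans (Equiv.trans ?_ (Equiv.setCongr e)))
    exact (QuotientGroup.preimageMkEquivSubgroupProdSet M _).symm
  -- the conjugates in `M` come in even number
  have heven : 2 ∣ Nat.card {x : G // x ∈ M ∧ IsConj u x} := by
    let _ : MulAction (S : Subgroup G) {x : G // x ∈ M ∧ IsConj u x} :=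
      { smul := fun s x => ⟨(s : G) * x * (s : G)⁻¹, hMn _ s.2 _ x.2.1,
          x.2.2.trans (isConj_iff.2 ⟨s, rfl⟩)⟩
        one_smul := fun x => Subtype.ext (by show (1 : G) * _ * (1 : G)⁻¹ = _; group)
        mul_smul := fun a b x => Subtype.ext (by
          show ((a : G) * b) * _ * ((a : G) * b)⁻¹ = (a : G) * ((b : G) * _ * (b : G)⁻¹) * (a : G)⁻¹
          group) }
    have hempty : IsEmpty (MulAction.fixedPoints (S : Subgroup G) {x : G // x ∈ M ∧ IsConj u x}) := by
      refine ⟨fun y => hx _ y.1.2.1 (fun s hs => ?_) y.1.2.2⟩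
      have h : s * (y.1 : G) * s⁻¹ = y.1 := congrArg Subtype.val (y.2 ⟨s, hs⟩)
      exact mul_inv_eq_iff_eq_mul.1 h
    have h := S.isPGroup'.card_modEq_card_fixedPoints {x : G // x ∈ M ∧ IsConj u x}
    rw [Nat.card_of_isEmpty (α := MulAction.fixedPoints _ _)] at h
    exact Nat.modEq_zero_iff_dvd.1 h
  have hSC : (S : Subgroup G) ≤ centralizer ({u} : Set G) := fun s hs => mem_centralizer_singleton_iff.2 (huc s hs)
  obtain ⟨c, hc⟩ := card_dvd_of_le hSC
  obtain ⟨d, hd⟩ := heven
  have hMpos : 0 < Nat.card M := Nat.card_pos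
  have h4 : 4 ∣ fix := by
    refine ⟨c * d, Nat.eq_of_mul_eq_mul_right hMpos ?_⟩
    rw [hfix', hc, hd, ← hM]
    ring
  have hidx : Nat.card (G ⧸ M) = 2 * (S : Subgroup G).index := by
    refine Nat.eq_of_mul_eq_mul_right hMpos ?_
    rw [← card_eq_card_quotient_mul_card_subgroup M, ← (S : Subgroup G).card_mul_index, ← hM]
    ring
  have hodd : ¬ 2 ∣ (S : Subgroup G).index := S.not_dvd_index
  obtain ⟨j, hj⟩ := hkeven
  omega

end Cfsg.Lib.Transfer
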