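import Mathlib
import Cfsg.Agent.Lib.Transfer.StronglyClosedOrder
import Cfsg.Agent.Lib.Solv.Huppert
import Cfsg.Agent.Lib.Solv.Supersolvable

/-!
Supersolvable groups from subgroups of fixed order that are strongly closed in their normalizers.
-/

set_option autoImplicit false
set_option linter.style.haveILetI false

open scoped Pointwise commutatorElement

namespace Cfsg.Lib.Transfer

universe u

variable {G : Type u} [Group G]

/-- Commutators and `(p-1)`-th powers. -/
def twist (p : ℕ) (G : Type u) [Group G] : Subgroup G :=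
  Subgroup.closure ({x | ∃ g h : G, x = ⁅g, h⁆} ∪ {x | ∃ g : G, x = g ^ (p - 1)})

instance twist_normal (p : ℕ) : (twist p G).Normal :=
  Subgroup.Normal.of_commutator_le G (by
    rw [commutator_def]
    exact Subgroup.commutator_le.2 fun g _ h _ =>
      Subgroup.subset_closure (Or.inl ⟨g, h, rfl⟩))

theorem twist_map {G' : Type u} [Group G'] (p : ℕ) (f : G →* G') (hf : Function.Surjective f) :
    (twist p G).map f = twist p G' := by
  refine le_antisymm (Subgroup.map_le_iff_le_comap.2 ((Subgroup.closure_le _).2 ?_))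
    ((Subgroup.closure_le _).2 ?_)
  · rintro x (⟨g, h, rfl⟩ | ⟨g, rfl⟩)
    · exact Subgroup.subset_closure (Or.inl ⟨f g, f h, map_commutatorElement f g h⟩)
    · exact Subgroup.subset_closure (Or.inr ⟨f g, map_pow f g _⟩)
  · rintro x (⟨g, h, rfl⟩ | ⟨g, rfl⟩)
    · obtain ⟨g, rfl⟩ := hf g
      obtain ⟨h, rfl⟩ := hf h
      exact ⟨_, Subgroup.subset_closure (Or.inl ⟨g, h, rfl⟩), map_commutatorElement f g h⟩
    · obtain ⟨g, rfl⟩ := hf g
      exact ⟨_, Subgroup.subset_closure (Or.inr ⟨g, rfl⟩), map_pow f g _⟩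

theorem twist_le_centralizer_prime [Finite G] {p : ℕ} [hp : Fact p.Prime] (C : Subgroup G) [C.Normal]
    (hC : Nat.card C = p) : twist p G ≤ Subgroup.centralizer (C : Set G) := by
  haveI : IsCyclic C := isCyclic_of_prime_card hC
  have hker : ∀ g : G, MulAut.conjNormal (H := C) g = 1 → g ∈ Subgroup.centralizer (C : Set G) := by
    intro g hg
    refine Subgroup.mem_centralizer_iff.2 fun z hz => ?_
    have h1 := congrArg (fun φ : MulAut C => ((φ ⟨z, hz⟩ : C) : G)) hg
    simp only [MulAut.conjNormal_apply, MulAut.one_apply] at h1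
    exact (mul_inv_eq_iff_eq_mul.1 h1).symm
  refine (Subgroup.closure_le _).2 ?_
  rintro x (⟨g, h, rfl⟩ | ⟨g, rfl⟩)
  · exact Cfsg.Lib.Solv.commutator_le_centralizer_cyclic C (by
      rw [commutator_def]
      exact Subgroup.commutator_mem_commutator (Subgroup.mem_top g) (Subgroup.mem_top h))
  · refine hker _ ?_
    have h1 : Nat.card (MulAut C) = p - 1 := by
      rw [IsCyclic.card_mulAut, hC, Nat.totient_prime hp.out]
    rw [map_pow, ← h1, pow_card_eq_one']

/-- `p'`-elements of `twist` centralize a normal `p`-subgroup whose maximal subgroups are normal. -/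
theorem centralizes_of_maximal_normal [Finite G] {p : ℕ} [hp : Fact p.Prime] {F : Subgroup G}
    (hF : IsPGroup p F) (hFn : F.Normal)
    (hmax : ∀ M : Subgroup G, M ≤ F → Nat.card M * p = Nat.card F → M.Normal) {a : G}
    (ha : a ∈ twist p G) (hac : (orderOf a).Coprime p) :
    ∀ x ∈ F, a * x * a⁻¹ = x := by
  have hcop : (Nat.card (Subgroup.zpowers a)).Coprime (Nat.card (frattini ↥F)) := by
    obtain ⟨n, hn⟩ := IsPGroup.iff_card.1 (hF.to_subgroup (frattini ↥F))
    rw [hn, Nat.card_zpowers]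
    exact hac.pow_right n
  have hle : Subgroup.zpowers a ≤ Subgroup.normalizer (F : Set G) := by
    rw [Subgroup.normalizer_eq_top]; exact le_top
  have := Cfsg.Lib.Solv.centralizes_of_frattini (Subgroup.zpowers a) F hle hcop (fun b hb k hk => by
    refine ⟨⟨b * k * b⁻¹ * k⁻¹, F.mul_mem (hFn.conj_mem k hk b) (F.inv_mem hk)⟩, ?_, rfl⟩
    refine Cfsg.Lib.Solv.mem_frattini_iff.2 fun M hM => ?_
    obtain ⟨-, hMi⟩ := coatom_normal_index hF hM
    set M₀ := M.map F.subtype
    have hM₀ : M₀ ≤ F := Subgroup.map_subtype_le M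
    haveI : M₀.Normal := hmax M₀ hM₀ (by
      rw [Subgroup.card_map_of_injective F.subtype_injective, ← hMi]
      exact M.card_mul_index)
    set f := QuotientGroup.mk' M₀
    haveI : (F.map f).Normal := hFn.map f (QuotientGroup.mk'_surjective M₀)
    have hc : Nat.card (F.map f) = p := by
      rw [Cfsg.Lib.Solv.card_map_eq_relIndex, QuotientGroup.ker_mk', Subgroup.relIndex,
        Subgroup.subgroupOf, Subgroup.comap_map_eq_self_of_injective F.subtype_injective, hMi]
    have h1 := twist_le_centralizer_prime (F.map f) hc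
      ((twist_map p f (QuotientGroup.mk'_surjective M₀)).le
        ⟨b, Subgroup.zpowers_le.2 ha hb, rfl⟩)
    have h2 : b * k * b⁻¹ * k⁻¹ ∈ M₀ := (QuotientGroup.eq_one_iff _).1 (by
      show f (b * k * b⁻¹ * k⁻¹) = 1
      rw [map_mul, map_mul, map_mul, map_inv, map_inv,
        ← Subgroup.mem_centralizer_iff.1 h1 (f k) ⟨k, hk, rfl⟩]
      group)
    obtain ⟨w, hw, hwk⟩ := h2
    exact (Subtype.ext hwk : w = ⟨b * k * b⁻¹ * k⁻¹, _⟩) ▸ hw)
  intro x hx
  exact mul_inv_eq_iff_eq_mul.2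
    (Subgroup.mem_centralizer_iff.1 (this (Subgroup.mem_zpowers a)) x hx).symm

/-- A normal `p`-subgroup with supersolvable quotient, centralized by the `p'`-elements of `twist`. -/
theorem supersolvable_of_twist : ∀ (n : ℕ) (G : Type u) [Group G] [Finite G] (p : ℕ) [Fact p.Prime]
    (P : Subgroup G) [P.Normal], Nat.card P ≤ n → IsPGroup p P → Cfsg.IsSupersolvable (G ⧸ P) →
      (∀ a ∈ twist p G, (orderOf a).Coprime p → ∀ x ∈ P, a * x * a⁻¹ = x) →
      Cfsg.IsSupersolvable G := by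
  intro n
  induction n with
  | zero => intro G _ _ p _ P _ hn; exact absurd hn (Nat.not_le.2 Nat.card_pos)
  | succ n ih =>
  intro G _ _ p hp P hPn hn hPp hss h
  by_cases hP : P = ⊥
  · subst hP
    exact Cfsg.Lib.Solv.isSupersolvable_of_equiv QuotientGroup.quotientBot hss
  obtain ⟨N, hNn, hNP, hNne, hNmin⟩ := Cfsg.Lib.Solv.exists_minimal_normal_le hP
  have hNp : IsPGroup p N := hPp.to_le hNP
  -- the twist subgroup centralizes `N`
  have htw : twist p G ≤ Subgroup.centralizer (N : Set G) := by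
    haveI := hNn
    set φ : ↥(twist p G) →* MulAut N :=
      (MulAut.conjNormal (H := N)).comp (twist p G).subtype
    have hker : ∀ a : ↥(twist p G), φ a = 1 ↔ (a : G) ∈ Subgroup.centralizer (N : Set G) := by
      intro a
      constructor
      · intro ha
        refine Subgroup.mem_centralizer_iff.2 fun z hz => ?_
        have h1 := congrArg (fun φ : MulAut N => ((φ ⟨z, hz⟩ : N) : G)) ha
        simp only [φ, MonoidHom.comp_apply, Subgroup.coe_subtype, MulAut.conjNormal_apply,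
          MulAut.one_apply] at h1
        exact (mul_inv_eq_iff_eq_mul.1 h1).symm
      · intro ha
        refine MulEquiv.ext fun z => Subtype.ext ?_
        show ((MulAut.conjNormal (a : G) z : N) : G) = z
        rw [MulAut.conjNormal_apply]
        exact mul_inv_eq_iff_eq_mul.2 (Subgroup.mem_centralizer_iff.1 ha z z.2).symm
    have hQ : IsPGroup p φ.range := by
      rintro ⟨_, a, rfl⟩
      obtain ⟨m, r, hrp, hr⟩ := Nat.exists_eq_pow_mul_and_not_dvd (orderOf_pos (a : G)).ne' p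
        hp.out.ne_one
      refine ⟨m, Subtype.ext ?_⟩
      show φ a ^ p ^ m = 1
      rw [← map_pow, hker]
      refine Subgroup.mem_centralizer_iff.2 fun z hz => ?_
      have h1 := h ((a : G) ^ p ^ m) (pow_mem a.2 _) (by
        rw [orderOf_pow_of_dvd (pow_ne_zero _ hp.out.ne_zero) ⟨r, hr⟩, hr,
          Nat.mul_div_cancel_left _ (pow_pos hp.out.pos m)]
        exact ((hp.out.coprime_iff_not_dvd).2 hrp).symm) z (hNP hz)
      rw [SubgroupClass.coe_pow]
      exact (mul_inv_eq_iff_eq_mul.1 h1).symm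
    letI := MulAction.compHom N φ.range.subtype
    have hd : p ∣ Nat.card N := by
      obtain ⟨m, hm⟩ := IsPGroup.iff_card.1 hNp
      rw [hm]
      exact dvd_pow_self p fun e => hNne (Subgroup.eq_bot_of_card_eq _ (by rw [hm, e, pow_zero]))
    obtain ⟨b, hb, hb1⟩ := hQ.exists_fixed_point_of_prime_dvd_card_of_fixed_point
      (α := N) hd (a := (1 : N)) (fun g => by
        show (g : MulAut N) 1 = 1
        exact map_one _)
    have hb' : (b : G) ∈ N ⊓ Subgroup.centralizer ((twist p G : Subgroup G) : Set G) :=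
      ⟨b.2, Subgroup.mem_centralizer_iff.2 fun a ha => by
        have h1 : ((φ ⟨a, ha⟩ b : N) : G) = b := congrArg Subtype.val (hb ⟨_, ⟨a, ha⟩, rfl⟩)
        simp only [φ, MonoidHom.comp_apply, Subgroup.coe_subtype, MulAut.conjNormal_apply] at h1
        exact mul_inv_eq_iff_eq_mul.1 h1⟩
    haveI : (Subgroup.centralizer ((twist p G : Subgroup G) : Set G)).Normal := inferInstance
    have hfull := (hNmin (N ⊓ Subgroup.centralizer ((twist p G : Subgroup G) : Set G))
      inferInstance inf_le_left).resolve_left fun e => hb1 (by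
        rw [e, Subgroup.mem_bot] at hb'
        exact (Subtype.ext hb').symm)
    exact Subgroup.le_centralizer_iff.1 (inf_eq_left.1 hfull)
  have hNsol : Group.IsSolvable N := by have := hNp.isNilpotent; infer_instance
  obtain ⟨hNc, r, hr, -, hNpow⟩ := Cfsg.Lib.Solv.minimal_normal_elementary hNne hNsol hNmin
  obtain ⟨z, hz, hz1⟩ := N.bot_or_exists_ne_one.resolve_left hNne
  have hzr : orderOf z = r := (hr.eq_one_or_self_of_dvd _
    (orderOf_dvd_of_pow_eq_one (hNpow z hz))).resolve_left fun e => hz1 (orderOf_eq_one_iff.1 e)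
  have hrp : r = p := by
    obtain ⟨m, hm⟩ := IsPGroup.iff_orderOf.1 hNp ⟨z, hz⟩
    rw [Subgroup.orderOf_mk, hzr] at hm
    exact (Nat.prime_dvd_prime_iff_eq hr hp.out).1 (hr.dvd_of_dvd_pow hm.dvd)
  haveI := hNn
  haveI : IsCyclic N := by
    have hscal : ∀ g : G, ∃ e : ℕ, ∀ x ∈ N, g * x * g⁻¹ = x ^ e := fun g =>
      Cfsg.Lib.Solv.exists_scalar (p := p) N hNne (fun x hx => hrp ▸ hNpow x hx) hNmin g
        (htw (Subgroup.subset_closure (Or.inr ⟨g, rfl⟩)))
        fun l => htw (Subgroup.subset_closure (Or.inl ⟨g, l, rfl⟩))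
    have hzn : (Subgroup.zpowers z).Normal := ⟨fun y hy g => by
      obtain ⟨e, he⟩ := hscal g
      rw [he y (Subgroup.zpowers_le.2 hz hy)]
      exact pow_mem hy e⟩
    have hzN : Subgroup.zpowers z = N :=
      (hNmin _ hzn (Subgroup.zpowers_le.2 hz)).resolve_left (by simpa using hz1)
    rw [← hzN]
    infer_instance
  refine Cfsg.Lib.Solv.isSupersolvable_of_cyclic_normal N ?_
  set f := QuotientGroup.mk' N
  haveI : (P.map f).Normal := hPn.map f (QuotientGroup.mk'_surjective N)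
  refine ih (G ⧸ N) p (P.map f) ?_ (hPp.map f)
    (Cfsg.Lib.Solv.isSupersolvable_of_equiv (QuotientGroup.quotientQuotientEquivQuotient N P hNP).symm hss) ?_
  · have h1 : Nat.card (P.map f) * Nat.card N = Nat.card P := by
      rw [Cfsg.Lib.Solv.card_map_eq_relIndex, QuotientGroup.ker_mk', mul_comm,
        ← Cfsg.Lib.Solv.card_eq_mul_relIndex hNP]
    have h2 : 1 < Nat.card N := (Subgroup.one_lt_card_iff_ne_bot N).2 hNne
    have h3 : 0 < Nat.card (P.map f) := Nat.card_pos
    nlinarith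
  · intro a ha hac x hx
    rw [← twist_map p f (QuotientGroup.mk'_surjective N)] at ha
    obtain ⟨b, hb, rfl⟩ := ha
    obtain ⟨y, hy, rfl⟩ := hx
    obtain ⟨m, r', hrp', hr'⟩ := Nat.exists_eq_pow_mul_and_not_dvd (orderOf_pos b).ne' p
      hp.out.ne_one
    have hfix := h (b ^ p ^ m) (pow_mem hb _) (by
      rw [orderOf_pow_of_dvd (pow_ne_zero _ hp.out.ne_zero) ⟨r', hr'⟩, hr',
        Nat.mul_div_cancel_left _ (pow_pos hp.out.pos m)]
      exact ((hp.out.coprime_iff_not_dvd).2 hrp').symm) y hy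
    have hcomm : Commute (f b ^ p ^ m) (f y) := by
      show _ = _
      rw [← map_pow, ← map_mul, ← map_mul]
      exact congrArg f (mul_inv_eq_iff_eq_mul.1 hfix)
    obtain ⟨e, he⟩ := exists_pow_eq_self_of_coprime
      ((Nat.Coprime.pow_right m hac).symm : (p ^ m).Coprime (orderOf (f b)))
    have h4 : Commute (f b) (f y) := he ▸ hcomm.pow_left e
    exact mul_inv_eq_iff_eq_mul.2 h4.eq

variable [Finite G]

/-- The hypothesis on the Sylow subgroups of `H`, with normalizers taken in `G`. -/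
def StrongSylows (H : Subgroup G) : Prop :=
  ∀ (p : ℕ), p.Prime → ∀ P : Subgroup G, P ≤ H → IsPGroup p P → ¬ p ∣ P.relIndex H →
    ¬ IsCyclic ↥P → ∃ k : ℕ, k ≠ 0 ∧ p ^ k < Nat.card P ∧ StrongOfOrder P (p ^ k)

theorem StrongSylows.mono {H K : Subgroup G} (h : StrongSylows H) (hKH : K ≤ H)
    (hidx : ∀ p : ℕ, p.Prime → p ∣ Nat.card K → ¬ p ∣ K.relIndex H) : StrongSylows K := by
  intro p hp P hPK hPp hPi hPc
  refine h p hp P (hPK.trans hKH) hPp ?_ hPc
  rw [← Subgroup.relIndex_mul_relIndex P K H hPK hKH, hp.dvd_mul, not_or]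
  refine ⟨hPi, hidx p hp ?_⟩
  haveI := Fact.mk hp
  obtain ⟨n, hn⟩ := IsPGroup.iff_card.1 hPp
  refine dvd_trans ?_ (hn.symm ▸ Subgroup.card_dvd_of_le hPK)
  refine dvd_pow_self p fun e => hPc ?_
  rw [Subgroup.eq_bot_of_card_eq P (by rw [hn, e, pow_zero])]
  infer_instance

theorem hasNormalPComplement_of_strongSylows {H : Subgroup G} (h : StrongSylows H) {p : ℕ}
    [hp : Fact p.Prime] (hd : p ∣ Nat.card H)
    (hmin : ∀ q : ℕ, q.Prime → q ∣ Nat.card H → p ≤ q) : Cfsg.HasNormalPComplement p H := by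
  obtain ⟨P⟩ := (inferInstance : Nonempty (Sylow p H))
  by_cases hc : IsCyclic ↥(P : Subgroup H)
  · exact hasNormalPComplement_of_normalizer_le_centralizer P
      (IsCyclic.normalizer_le_centralizer
        (le_antisymm (Nat.minFac_le_of_dvd hp.out.two_le hd)
          (hmin _ (Nat.minFac_prime fun h1 => hp.out.ne_one (Nat.eq_one_of_dvd_one (h1 ▸ hd)))
            (Nat.minFac_dvd _))) hc)
  have e := (P : Subgroup H).equivMapOfInjective H.subtype H.subtype_injective
  obtain ⟨k, hk, hlt, hs⟩ := h p hp.out ((P : Subgroup H).map H.subtype) (Subgroup.map_subtype_le _)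
    (P.isPGroup'.map _) (by
      rw [Subgroup.relIndex, Subgroup.subgroupOf,
        Subgroup.comap_map_eq_self_of_injective H.subtype_injective]
      exact P.not_dvd_index)
    (fun h' => hc (haveI := h'; isCyclic_of_injective e.toMonoidHom e.injective))
  refine hasNormalPComplement_of_strong (P := P) hmin hk ?_ ?_
  · rwa [Nat.card_congr e.toEquiv]
  · intro E hEP hEc g
    rintro x ⟨⟨z, hz, rfl⟩, hxN⟩
    have hEc' : Nat.card (E.map H.subtype) = Nat.card E :=
      Subgroup.card_map_of_injective H.subtype_injective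
    have hmem := hs (E.map H.subtype) (Subgroup.map_mono hEP) (hEc'.symm ▸ hEc) g
      (x := ((MulAut.conj g z : H) : G))
      ⟨⟨z, ⟨z, hz, rfl⟩, rfl⟩, Subgroup.le_normalizer_map H.subtype ⟨_, hxN, rfl⟩⟩
    obtain ⟨w, hw, hwe⟩ := hmem
    exact (Subtype.ext hwe : w = MulAut.conj g z) ▸ hw

/-- The Sylow subgroup for the largest prime is normal. -/
theorem exists_normal_sylow_of_strongSylows (H : Subgroup G) (hH : H.Normal) (h : StrongSylows H)
    (q : ℕ) [hq : Fact q.Prime] (hmax : ∀ r : ℕ, r.Prime → r ∣ Nat.card H → r ≤ q) :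
    ∃ Q : Subgroup G, Q.Normal ∧ Q ≤ H ∧ IsPGroup q Q ∧ ¬ q ∣ Q.relIndex H := by
  induction H using (wellFounded_lt (α := Subgroup G)).induction with
  | _ H ih =>
  by_cases hHq : IsPGroup q H
  · exact ⟨H, hH, le_rfl, hHq, by rw [Subgroup.relIndex_self]; exact hq.out.not_dvd_one⟩
  have hne : Nat.card H ≠ 1 := fun e => hHq (IsPGroup.of_card (n := 0) (by rw [e, pow_zero]))
  set p := (Nat.card H).minFac
  haveI hp : Fact p.Prime := ⟨Nat.minFac_prime hne⟩
  have hd : p ∣ Nat.card H := Nat.minFac_dvd _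
  have hmin : ∀ r : ℕ, r.Prime → r ∣ Nat.card H → p ≤ r := fun r hr hrd =>
    Nat.minFac_le_of_dvd hr.two_le hrd
  have hpq : p ≠ q := fun e => hHq (IsPGroup.of_card
    (Nat.eq_prime_pow_of_unique_prime_dvd Nat.card_pos.ne' fun {r} hr hrd =>
      le_antisymm (hmax r hr hrd) (e ▸ hmin r hr hrd)))
  have hc := hasNormalPComplement_of_strongSylows h hd hmin
  rw [hasNormalPComplement_iff_pResidual] at hc
  obtain ⟨m, hm⟩ := exists_index_pResidual_eq_pow (G := H) (p := p)
  haveI := pResidual_characteristic (G := H) p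
  haveI := hH
  set K := (Cfsg.pResidual p H).map H.subtype
  have hKn : K.Normal := ConjAct.normal_of_characteristic_of_normal
  have hKc : Nat.card K = Nat.card (Cfsg.pResidual p H) :=
    Subgroup.card_map_of_injective H.subtype_injective
  have hKH : K ≤ H := Subgroup.map_subtype_le _
  have hKi : K.relIndex H = p ^ m := by
    rw [Subgroup.relIndex, Subgroup.subgroupOf,
      Subgroup.comap_map_eq_self_of_injective H.subtype_injective, hm]
  have hKlt : K < H := lt_of_le_of_ne hKH fun e => by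
    have h2 : p ∣ Nat.card K := by rw [e]; exact hd
    exact hp.out.ne_one (Nat.eq_one_of_dvd_coprimes (hKc ▸ hc) h2 dvd_rfl)
  obtain ⟨Q, hQn, hQK, hQp, hQi⟩ := ih K hKlt hKn (h.mono hKH fun r hr hrd hri => by
      rw [hKi] at hri
      rw [(Nat.prime_dvd_prime_iff_eq hr hp.out).1 (hr.dvd_of_dvd_pow hri)] at hrd
      exact hp.out.ne_one (Nat.eq_one_of_dvd_coprimes (hKc ▸ hc) hrd dvd_rfl))
    (fun r hr hrd => hmax r hr (hrd.trans (Subgroup.card_dvd_of_le hKH)))
  refine ⟨Q, hQn, hQK.trans hKH, hQp, ?_⟩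
  rw [← Subgroup.relIndex_mul_relIndex Q K H hQK hKH, hq.out.dvd_mul, not_or]
  exact ⟨hQi, fun hd' => hpq ((Nat.prime_dvd_prime_iff_eq hq.out hp.out).1
    (hq.out.dvd_of_dvd_pow (hKi ▸ hd'))).symm⟩

/-- The hypothesis passes to quotients by normal Sylow subgroups. -/
theorem StrongSylows.map_quotient {E Q : Subgroup G} [Q.Normal] (h : StrongSylows E) (hQE : Q ≤ E)
    {q : ℕ} [hq : Fact q.Prime] (hQq : IsPGroup q Q) (hQi : ¬ q ∣ Q.relIndex E) :
    StrongSylows (E.map (QuotientGroup.mk' Q)) := by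
  set f := QuotientGroup.mk' Q with hf
  have hfk : f.ker = Q := QuotientGroup.ker_mk' Q
  intro r hr P' hP'E hP'p hP'i hP'c
  haveI := Fact.mk hr
  obtain ⟨m, hm⟩ := IsPGroup.iff_card.1 hP'p
  have hm0 : m ≠ 0 := fun e => hP'c (by
    rw [Subgroup.eq_bot_of_card_eq P' (by rw [hm, e, pow_zero])]; infer_instance)
  have hrd : r ∣ Nat.card (E.map f) :=
    (hm.symm ▸ dvd_pow_self r hm0 : r ∣ Nat.card P').trans (Subgroup.card_dvd_of_le hP'E)
  have hrq : r ≠ q := fun e => by
    subst e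
    rw [Cfsg.Lib.Solv.card_map_eq_relIndex, hfk] at hrd
    exact hQi hrd
  set B := P'.comap f
  have hBE : B ≤ E := by
    refine (Subgroup.comap_mono hP'E).trans ?_
    rw [Subgroup.comap_map_eq, hfk, sup_eq_left.2 hQE]
  obtain ⟨S⟩ := (inferInstance : Nonempty (Sylow r B))
  set P₀ := (S : Subgroup B).map B.subtype
  have hP₀B : P₀ ≤ B := Subgroup.map_subtype_le _
  have hP₀p : IsPGroup r P₀ := S.isPGroup'.map _
  have hdisj : ∀ X : Subgroup G, IsPGroup r X → X ⊓ Q = ⊥ := fun X hX =>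
    Subgroup.eq_bot_of_card_eq _ (Nat.eq_one_of_dvd_coprimes
      (IsPGroup.coprime_card_of_ne q r hrq.symm Q X hQq hX).symm
      (Subgroup.card_dvd_of_le inf_le_left) (Subgroup.card_dvd_of_le inf_le_right))
  have hcardmap : ∀ X : Subgroup G, IsPGroup r X → Nat.card (X.map f) = Nat.card X := fun X hX => by
    rw [Cfsg.Lib.Solv.card_map_eq_relIndex, hfk, ← Subgroup.inf_relIndex_right, inf_comm,
      hdisj X hX, Subgroup.relIndex_bot_left]
  have hB : B.map f = P' := Subgroup.map_comap_eq_self_of_surjective (QuotientGroup.mk'_surjective Q) P'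
  have hP₀P' : P₀.map f = P' := by
    refine Subgroup.eq_of_le_of_card_ge ((Subgroup.map_mono hP₀B).trans hB.le) ?_
    rw [hcardmap P₀ hP₀p, Subgroup.card_map_of_injective B.subtype_injective, hm,
      S.card_eq_multiplicity]
    refine Nat.pow_le_pow_right hr.pos ((hr.pow_dvd_iff_le_factorization Nat.card_pos.ne').1 ?_)
    rw [← hm, ← hB]
    exact (Subgroup.card_map_dvd B f)
  have hP₀i : ¬ r ∣ P₀.relIndex E := by
    rw [← Subgroup.relIndex_mul_relIndex P₀ B E hP₀B hBE, hr.dvd_mul, not_or]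
    refine ⟨?_, ?_⟩
    · rw [Subgroup.relIndex, Subgroup.subgroupOf,
        Subgroup.comap_map_eq_self_of_injective B.subtype_injective]
      exact S.not_dvd_index
    · intro hd
      refine hP'i ?_
      have e : P'.relIndex (E.map f) = B.relIndex E := (Subgroup.relIndex_comap P' f E).symm
      rwa [e]
  have hP₀c : ¬ IsCyclic ↥P₀ := fun hc => hP'c (by
    haveI := hc
    rw [← hP₀P']
    exact isCyclic_of_surjective (f.subgroupMap P₀) (f.subgroupMap_surjective P₀))
  obtain ⟨k, hk, hlt, hs⟩ := h r hr P₀ (hP₀B.trans hBE) hP₀p hP₀i hP₀c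
  refine ⟨k, hk, by rwa [← hP₀P', hcardmap P₀ hP₀p], fun F' hF'P hF'c g' => ?_⟩
  set C := F'.comap f
  set F₀ := P₀ ⊓ C
  have hF₀p : IsPGroup r F₀ := hP₀p.to_le inf_le_left
  have hF₀F : F₀.map f = F' := le_antisymm
    ((Subgroup.map_mono inf_le_right).trans (Subgroup.map_comap_le _ _)) fun y hy => by
      obtain ⟨w, hw, hwy⟩ := hP₀P'.ge (hF'P hy)
      exact ⟨w, ⟨hw, show f w ∈ F' from hwy ▸ hy⟩, hwy⟩
  have hF₀card : Nat.card F₀ = Nat.card F' := by rw [← hF₀F, hcardmap F₀ hF₀p]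
  rintro x' ⟨⟨z', hz', rfl⟩, hxN⟩
  obtain ⟨g, rfl⟩ := QuotientGroup.mk'_surjective Q g'
  obtain ⟨z, hz, rfl⟩ := hF₀F.ge hz'
  set x := g * z * g⁻¹ with hx
  have hfx : f x = (MulAut.conj (f g)).toMonoidHom (f z) := by simp [hx, f]
  rw [← hfx] at hxN ⊢
  have hxC : x ∈ Subgroup.normalizer (C : Set G) := Subgroup.mem_normalizer_iff.2 fun w => by
    show f w ∈ F' ↔ f (x * w * x⁻¹) ∈ F'
    rw [map_mul, map_mul, map_inv]
    exact Subgroup.mem_normalizer_iff.1 hxN (f w)
  set Y := C ⊔ Subgroup.zpowers x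
  have hCY : C ≤ Y := le_sup_left
  haveI : (C.subgroupOf Y).Normal := (Subgroup.normal_subgroupOf_iff_le_normalizer hCY).2
    (sup_le Subgroup.le_normalizer (Subgroup.zpowers_le.2 hxC))
  have hxY : x ∈ Y := Subgroup.mem_sup_right (Subgroup.mem_zpowers x)
  have hxp : IsPGroup r (Subgroup.zpowers (⟨x, hxY⟩ : Y)) := by
    obtain ⟨j, hj⟩ := IsPGroup.iff_orderOf.1 hF₀p ⟨z, hz⟩
    rw [Subgroup.orderOf_mk] at hj
    refine IsPGroup.of_card (n := j) ?_
    rw [Nat.card_zpowers, Subgroup.orderOf_mk, hx, ← MulAut.conj_apply, MulEquiv.orderOf_eq, hj]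
  obtain ⟨T, hT⟩ := hxp.exists_le_sylow
  set W := ((T : Subgroup Y).map Y.subtype) ⊓ C
  have hWp : IsPGroup r W := (T.isPGroup'.map _).to_le inf_le_left
  have hWi : ¬ r ∣ W.relIndex C := by
    rw [Subgroup.inf_relIndex_right]
    intro hd
    apply T.not_dvd_index
    refine hd.trans ?_
    have h1 := relIndex_dvd_index_of_normal_right (T : Subgroup Y) (C.subgroupOf Y)
    rwa [← Subgroup.relIndex_map_map_of_injective (T : Subgroup Y) (C.subgroupOf Y)
      Y.subtype_injective, Subgroup.map_subgroupOf_eq_of_le hCY] at h1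
  have hF₀i : ¬ r ∣ F₀.relIndex C := by
    intro hd
    have h1 : Nat.card F₀ * F₀.relIndex C = Nat.card C :=
      (Cfsg.Lib.Solv.card_eq_mul_relIndex inf_le_right).symm
    have hQC : Q ≤ C := by rw [← hfk]; exact Subgroup.ker_le_comap f F'
    have h2 : Nat.card C = Nat.card Q * Nat.card F₀ := by
      rw [Cfsg.Lib.Solv.card_eq_mul_relIndex hQC, ← hfk, ← Cfsg.Lib.Solv.card_map_eq_relIndex,
        Subgroup.map_comap_eq_self_of_surjective (QuotientGroup.mk'_surjective Q) F', hfk, hF₀card]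
    rw [h2, mul_comm (Nat.card Q)] at h1
    rw [Nat.eq_of_mul_eq_mul_left Nat.card_pos h1] at hd
    obtain ⟨j, hj⟩ := IsPGroup.iff_card.1 hQq
    exact hrq ((Nat.prime_dvd_prime_iff_eq hr hq.out).1 (hr.dvd_of_dvd_pow (hj ▸ hd)))
  obtain ⟨v, hv⟩ := MulAction.exists_smul_eq C
    ((hF₀p.of_equiv (Subgroup.subgroupOfEquivOfLe (inf_le_right : F₀ ≤ C)).symm).toSylow hF₀i)
    ((hWp.of_equiv (Subgroup.subgroupOfEquivOfLe (inf_le_right : W ≤ C)).symm).toSylow hWi)
  have hW : W = F₀.map (MulAut.conj (v : G)).toMonoidHom := by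
    have h1 : _ = _ := congrArg (fun S : Sylow r C => (S : Subgroup C).map C.subtype) hv
    simp only [Sylow.coe_subgroup_smul, Cfsg.Lib.Solv.map_conj_smul] at h1
    rw [Cfsg.Lib.Solv.conj_smul_eq_map] at h1
    have eW := Subgroup.map_subgroupOf_eq_of_le (inf_le_right : W ≤ C)
    have eF := Subgroup.map_subgroupOf_eq_of_le (inf_le_right : F₀ ≤ C)
    exact (eW.symm.trans (h1.symm.trans (congrArg _ eF)))
  have hxT : x ∈ (T : Subgroup Y).map Y.subtype := ⟨⟨x, hxY⟩, hT (Subgroup.mem_zpowers _), rfl⟩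
  have hxW : ∀ w ∈ W, x * w * x⁻¹ ∈ W := fun w hw =>
    ⟨Subgroup.mul_mem _ (Subgroup.mul_mem _ hxT hw.1) (Subgroup.inv_mem _ hxT),
      (Subgroup.mem_normalizer_iff.1 hxC w).1 hw.2⟩
  have hvN : (v : G)⁻¹ * x * v ∈ Subgroup.normalizer (F₀ : Set G) :=
    mem_normalizer_of_conj_mem fun w hw => by
      obtain ⟨w', hw', he⟩ := hW.le (hxW _ (hW.ge ⟨w, hw, rfl⟩))
      have : w' = (v : G)⁻¹ * x * v * w * ((v : G)⁻¹ * x * v)⁻¹ := by
        have h1 : (v : G) * w' * (v : G)⁻¹ = x * ((v : G) * w * (v : G)⁻¹) * x⁻¹ := he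
        calc w' = (v : G)⁻¹ * ((v : G) * w' * (v : G)⁻¹) * v := by group
          _ = _ := by rw [h1]; group
      exact this ▸ hw'
  have hmem : (v : G)⁻¹ * x * v ∈ F₀ := hs F₀ inf_le_left (hF₀card.symm ▸ hF'c) ((v : G)⁻¹ * g)
    ⟨⟨z, hz, by simp [hx, mul_assoc]⟩, hvN⟩
  have hxF : x ∈ C := by
    have := C.mul_mem (C.mul_mem v.2 hmem.2) (C.inv_mem v.2)
    simpa [mul_assoc] using this
  exact hxF

/-- A normal `p`-subgroup with supersolvable quotient. -/
theorem supersolvable_of_strong_normal {p : ℕ} [hp : Fact p.Prime] (P : Subgroup G) [hPn : P.Normal]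
    (hPp : IsPGroup p P) (hss : Cfsg.IsSupersolvable (G ⧸ P)) (h : StrongSylows P) :
    Cfsg.IsSupersolvable G := by
  by_cases hc : IsCyclic ↥P
  · haveI := hc
    exact Cfsg.Lib.Solv.isSupersolvable_of_cyclic_normal P hss
  obtain ⟨k, hk, hlt, hs⟩ := h p hp.out P le_rfl hPp
    (by rw [Subgroup.relIndex_self]; exact hp.out.not_dvd_one) hc
  have hnorm : ∀ E : Subgroup G, E ≤ P → (Nat.card E = p ^ k ∨ (p ^ k = 2 ∧ Nat.card E = 4)) →
      E.Normal := fun E hE hEc => ⟨fun x hx g => conj_mem_of_strong hPp hs hE hEc le_rfl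
        (by rw [Subgroup.normalizer_eq_top]; exact Subgroup.mem_top g) hx (hE hx)⟩
  refine supersolvable_of_twist _ G p P le_rfl hPp hss fun a ha hac => ?_
  have hcyc : ∀ E : Subgroup G, E ≤ P → E.Normal → IsCyclic ↥E → ∀ x ∈ E, a * x * a⁻¹ = x := by
    intro E hE hEn hEc
    refine centralizes_of_maximal_normal (hPp.to_le hE) hEn (fun M hM hMc => ?_) ha hac
    refine ⟨fun x hx g => ?_⟩
    have e := card_maximal_of_cyclic hEc hM (M' := M.map (MulAut.conj g).toMonoidHom)
      (by rintro _ ⟨z, hz, rfl⟩; exact hEn.conj_mem z (hM hz) g)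
      (Subgroup.card_map_of_injective (MulAut.conj g).injective).symm
    rw [e]
    exact ⟨x, hx, rfl⟩
  have hEfix : ∀ E : Subgroup G, E ≤ P → Nat.card E = p ^ k → ∀ z ∈ E, a * z * a⁻¹ = z := by
    intro E hE hEc
    by_cases hc' : IsCyclic ↥E
    · exact hcyc E hE (hnorm E hE (Or.inl hEc)) hc'
    obtain ⟨F, hEF, hFP, hFc⟩ := exists_between_card hPp hE (m := k + 1)
      (by rw [hEc]; exact Nat.pow_le_pow_right hp.out.pos k.le_succ)
      (by
        obtain ⟨r, hr⟩ := IsPGroup.iff_card.1 hPp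
        rw [hr] at hlt ⊢
        exact Nat.pow_le_pow_right hp.out.pos ((Nat.pow_lt_pow_iff_right hp.out.one_lt).1 hlt))
    have hFnc : ¬ IsCyclic ↥F := fun hFc' => hc' (by
      haveI := hFc'
      exact isCyclic_of_injective (Subgroup.inclusion hEF) (Subgroup.inclusion_injective hEF))
    have hsub : ∀ M : Subgroup G, M ≤ F → Nat.card M * p = Nat.card F → M.Normal :=
      fun M hM hMc => hnorm M (hM.trans hFP) (Or.inl (Nat.eq_of_mul_eq_mul_right hp.out.pos
        (by rw [hMc, hFc, pow_succ])))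
    have hFn : F.Normal := ⟨fun z hz g => by
      have hne : Subgroup.zpowers (⟨z, hz⟩ : ↥F) ≠ ⊤ := fun e => hFnc
        ⟨⟨z, hz⟩, fun w => (e ▸ Subgroup.mem_top w : w ∈ Subgroup.zpowers (⟨z, hz⟩ : ↥F))⟩
      obtain ⟨N, hN, hzN⟩ := (eq_top_or_exists_le_coatom _).resolve_left hne
      obtain ⟨-, hNi⟩ := coatom_normal_index (hPp.to_le hFP) hN
      refine Subgroup.map_subtype_le N ((hsub _ (Subgroup.map_subtype_le N) ?_).conj_mem z
        ⟨⟨z, hz⟩, hzN (Subgroup.mem_zpowers _), rfl⟩ g)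
      rw [Subgroup.card_map_of_injective F.subtype_injective, ← hNi]
      exact N.card_mul_index⟩
    exact fun z hz => centralizes_of_maximal_normal (hPp.to_le hFP) hFn hsub ha hac z (hEF hz)
  refine commute_of_fix_small hPp (by rw [Subgroup.normalizer_eq_top]; exact Subgroup.mem_top a)
    hac fun z hz hor => ?_
  by_cases hzc : Nat.card (Subgroup.zpowers z) ≤ p ^ k
  · obtain ⟨E, hzE, hEU, hEc⟩ := exists_between_card hPp (Subgroup.zpowers_le.2 hz) hzc hlt.le
    exact hEfix E hEU hEc z (hzE (Subgroup.mem_zpowers z))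
  rw [Nat.card_zpowers, not_le] at hzc
  rcases hor with hor | ⟨rfl, hor⟩
  · have h1 := Nat.le_of_dvd hp.out.pos (orderOf_dvd_of_pow_eq_one hor)
    have h2 := Nat.le_self_pow hk p
    omega
  · have h1 := orderOf_dvd_of_pow_eq_one hor
    have h2 : 2 ^ k < 4 := hzc.trans_le (Nat.le_of_dvd (by norm_num) h1)
    have hk1 : k = 1 := by
      have := (Nat.pow_lt_pow_iff_right (a := 2) (by norm_num)).1 (show 2 ^ k < 2 ^ 2 from h2)
      omega
    subst hk1
    have h4 : orderOf z = 4 := by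
      obtain ⟨i, hi, he⟩ := (Nat.dvd_prime_pow Nat.prime_two).1 (show orderOf z ∣ 2 ^ 2 from h1)
      rw [he] at hzc ⊢
      have := (Nat.pow_lt_pow_iff_right (a := 2) (by norm_num)).1 hzc
      interval_cases i
      rfl
    exact hcyc _ (Subgroup.zpowers_le.2 hz) (hnorm _ (Subgroup.zpowers_le.2 hz)
      (Or.inr ⟨by norm_num, by rw [Nat.card_zpowers, h4]⟩))
      (isCyclic_iff_exists_zpowers_eq_top.2 ⟨⟨z, Subgroup.mem_zpowers z⟩, by
        rw [eq_top_iff]
        rintro ⟨w, i, rfl⟩ -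
        exact ⟨i, Subtype.ext (SubgroupClass.coe_zpow _ i)⟩⟩) z (Subgroup.mem_zpowers z)

theorem supersolvable_of_strongSylows : ∀ (n : ℕ) (G : Type u) [Group G] [Finite G] (E : Subgroup G)
    [E.Normal], Nat.card E ≤ n → Cfsg.IsSupersolvable (G ⧸ E) → StrongSylows E →
      Cfsg.IsSupersolvable G := by
  intro n
  induction n with
  | zero => intro G _ _ E _ hn; exact absurd hn (Nat.not_le.2 Nat.card_pos)
  | succ n ih =>
  intro G _ _ E hEn hn hss h
  by_cases hE : E = ⊥
  · subst hE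
    exact Cfsg.Lib.Solv.isSupersolvable_of_equiv QuotientGroup.quotientBot hss
  have h1 : (Nat.card E).primeFactors.Nonempty :=
    Nat.nonempty_primeFactors.2 ((Subgroup.one_lt_card_iff_ne_bot E).2 hE)
  set q := (Nat.card E).primeFactors.max' h1
  have hqm : q ∈ (Nat.card E).primeFactors := Finset.max'_mem _ h1
  haveI : Fact q.Prime := ⟨Nat.prime_of_mem_primeFactors hqm⟩
  obtain ⟨Q, hQn, hQE, hQq, hQi⟩ := exists_normal_sylow_of_strongSylows E hEn h q fun r hr hrd =>
    Finset.le_max' _ r (Nat.mem_primeFactors.2 ⟨hr, hrd, Nat.card_pos.ne'⟩)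
  haveI := hQn
  have hQne : Q ≠ ⊥ := fun e => hQi (by
    rw [e, Subgroup.relIndex_bot_left]; exact Nat.dvd_of_mem_primeFactors hqm)
  set f := QuotientGroup.mk' Q
  haveI : (E.map f).Normal := hEn.map f (QuotientGroup.mk'_surjective Q)
  have hq : Cfsg.IsSupersolvable (G ⧸ Q) := by
    refine ih (G ⧸ Q) (E.map f) ?_
      (Cfsg.Lib.Solv.isSupersolvable_of_equiv
        (QuotientGroup.quotientQuotientEquivQuotient Q E hQE).symm hss)
      (h.map_quotient hQE hQq hQi)
    have h3 : Nat.card (E.map f) * Nat.card Q = Nat.card E := by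
      rw [Cfsg.Lib.Solv.card_map_eq_relIndex, QuotientGroup.ker_mk', mul_comm,
        ← Cfsg.Lib.Solv.card_eq_mul_relIndex hQE]
    have h4 : 1 < Nat.card Q := (Subgroup.one_lt_card_iff_ne_bot Q).2 hQne
    have h5 : 0 < Nat.card (E.map f) := Nat.card_pos
    nlinarith
  refine supersolvable_of_strong_normal Q hQq hq (h.mono hQE fun r hr hrd hri => ?_)
  obtain ⟨j, hj⟩ := IsPGroup.iff_card.1 hQq
  have e := (Nat.prime_dvd_prime_iff_eq hr (Fact.out : q.Prime)).1 (hr.dvd_of_dvd_pow (hj ▸ hrd))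
  exact hQi (e ▸ hri)

end Cfsg.Lib.Transfer
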